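import Cfsg.Agent.H811.PSq.RankTwo
import Cfsg.Agent.H713.Van

/-!
# A rank two family of cuspidal characters vanishes on the whole `Aut`-class of a torus element (helper649)

* `vz_of_family` : `E` a family of irreducible characters which agree on all the subgroups of order prime to `a`,
  with more than `|W|` members, the orders of the maximal parabolic subgroups prime to `a`, `x ∈ T` with fixed points
  on at most one pair of opposite root groups: `H713.VZ Y x`.
-/

set_option autoImplicit false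

open scoped ComplexConjugate
open Cfsg

namespace Cfsg.Agent.H649.VanSp4

open CoxeterSystem Cfsg.Agent.ChevalleyStructure.CoxeterGeom Cfsg.Agent.Tits.Roots Cfsg.Agent.Tits.Core
  Cfsg.Agent.Tits.Exchange Cfsg.Agent.Nodes.Reps Cfsg.Agent.Nodes.BNOf Cfsg.Agent.Nodes.StabComb
  Cfsg.Agent.Nodes.Bruhat Cfsg.Agent.Nodes.OppDec Cfsg.Agent.Nodes.LeviDec Cfsg.Agent.H53.HC Cfsg.Agent.H115.HC
  Cfsg.Agent.H811.PSq

variable {W Y : Type*} [Group W] [Group Y] {M : CoxeterMatrix (Fin 2)}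
  {cs : CoxeterSystem M W} {A : Fin 2 → Fin 2 → ℤ} {h : IsCartan M A} {p : ℕ} {T : Subgroup Y} {n : Fin 2 → Y}
  {X : (Fin 2 → ℤ) → Subgroup Y}

/-- the twist of an irreducible character -/
noncomputable def tw (α : MulAut Y) (χ : IrrCharacter Y) : IrrCharacter Y :=
  ⟨(χ : Y → ℂ) ∘ α, Cfsg.Agent.Characters.Core.isIrr_comp (α : Y →* Y) α.surjective χ.2⟩

theorem tw_apply (α : MulAut Y) (χ : IrrCharacter Y) (y : Y) : (tw α χ : Y → ℂ) y = (χ : Y → ℂ) (α y) := rfl

theorem tw_injective (α : MulAut Y) : Function.Injective (tw (Y := Y) α) := by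
  intro χ χ' hh
  apply Subtype.ext
  funext y
  have h1 := congrArg (fun ψ : IrrCharacter Y => (ψ : Y → ℂ) (α.symm y)) hh
  simp only [tw_apply, MulEquiv.apply_symm_apply] at h1
  exact h1

theorem cases_J {J : Set (Fin 2)} (hJ : J ≠ Set.univ) : J = ∅ ∨ J = {0} ∨ J = {1} := by
  by_cases h0 : (0 : Fin 2) ∈ J
  · by_cases h1 : (1 : Fin 2) ∈ J
    · exact absurd (Set.eq_univ_of_forall fun k => by fin_cases k <;> assumption) hJ
    · right; left
      ext k
      fin_cases k
      · simpa using h0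
      · simpa using h1
  · by_cases h1 : (1 : Fin 2) ∈ J
    · right; right
      ext k
      fin_cases k
      · simpa using h0
      · simpa using h1
    · left
      ext k
      fin_cases k
      · simpa using h0
      · simpa using h1

theorem single_ne_univ (i : Fin 2) : ({i} : Set (Fin 2)) ≠ Set.univ := by
  intro h1
  have h3 : ∀ k : Fin 2, k ∈ ({i} : Set (Fin 2)) := fun k => by rw [h1]; trivial
  have h4 := h3 0
  have h5 := h3 1
  rw [Set.mem_singleton_iff] at h4 h5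
  exact absurd (h4.trans h5.symm) (by decide)

variable (R : RGD cs h p T n X)

include R

theorem vz_of_family [Finite W] [Finite Y] (hG : GG cs h T X = ⊤) (hTc : ∀ a ∈ T, ∀ b ∈ T, a * b = b * a) {a : ℕ}
    (E : Finset (IrrCharacter Y))
    (hE : ∀ χ ∈ E, ∀ χ' ∈ E, ∀ P : Subgroup Y, (Nat.card P).Coprime a → ∀ x ∈ P, (χ : Y → ℂ) x = (χ' : Y → ℂ) x)
    (hP : ∀ i, (Nat.card (PJ cs h T X {i})).Coprime a) (h2 : 2 < E.card) (hcard : Nat.card W < E.card)
    {x : Y} (hx : x ∈ T)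
    (hone : ∀ z z', IsRoot cs h z → IsRoot cs h z' → NF X x z → NF X x z' → z = z' ∨ z = -z') :
    H713.VZ Y x := by
  classical
  have hfin := Fintype.ofFinite Y
  have hne : E.Nonempty := Finset.card_pos.1 (by omega)
  obtain ⟨χ, hχ⟩ := hne
  refine ⟨χ, fun α => ?_⟩
  -- the twisted family
  set E' : Finset (IrrCharacter Y) := E.image (tw α) with hE'
  have hc' : E'.card = E.card := Finset.card_image_of_injective _ (tw_injective α)
  have hχ' : tw α χ ∈ E' := Finset.mem_image_of_mem _ hχ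
  have hag : ∀ ψ ∈ E', ∀ ψ' ∈ E', ∀ P : Subgroup Y, (Nat.card P).Coprime a → ∀ x ∈ P, (ψ : Y → ℂ) x = (ψ' : Y → ℂ) x := by
    intro ψ hψ ψ' hψ' P hPc x hx
    obtain ⟨χ₁, h1, rfl⟩ := Finset.mem_image.1 hψ
    obtain ⟨χ₂, h2, rfl⟩ := Finset.mem_image.1 hψ'
    rw [tw_apply, tw_apply]
    refine hE χ₁ h1 χ₂ h2 (P.map (α : Y →* Y)) ?_ (α x) (Subgroup.mem_map_of_mem _ hx)
    rw [Nat.card_congr (P.equivMapOfInjective (α : Y →* Y) α.injective).symm.toEquiv]
    exact hPc
  have hPJ : ∀ J : Set (Fin 2), J ≠ Set.univ → ∀ ψ ∈ E', ∀ ψ' ∈ E', ∀ x ∈ PJ cs h T X J,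
      (ψ : Y → ℂ) x = (ψ' : Y → ℂ) x := by
    intro J hJ ψ hψ ψ' hψ' x hx
    rcases cases_J hJ with rfl | rfl | rfl
    · exact hag ψ hψ ψ' hψ' _ (hP 0) x (Cfsg.Agent.H246.Dl.PJ_mono (Set.empty_subset _) hx)
    · exact hag ψ hψ ψ' hψ' _ (hP 0) x hx
    · exact hag ψ hψ ψ' hψ' _ (hP 1) x hx
  have hcusp := sum_VJ_eq_zero R hG hTc E' hPJ (fun J hJ => by
    left
    rw [hc']
    rcases cases_J hJ with rfl | rfl | rfl
    · exact lt_of_le_of_lt (Nat.card_le_card_of_injective _ Subtype.val_injective) hcard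
    · exact lt_of_le_of_lt (card_perm_le 0) h2
    · exact lt_of_le_of_lt (card_perm_le 1) h2)
  have h3 := char_zero R (tw α χ).2 (fun i => hcusp {i} (single_ne_univ i) _ hχ') hx hone
  exact h3

end Cfsg.Agent.H649.VanSp4
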