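import Cfsg.Agent.H649.VanSp4.Fam
import Cfsg.Agent.Nodes.WittAll
import Cfsg.Agent.Nodes.WittU
import Cfsg.Agent.TitsThree.KInstSp
import Cfsg.Agent.S0777

/-!
# The torus of `PSp₄(q)`, `q` even (helper649)

* `hone` : a nonidentity element of the torus has fixed points on at most one pair of opposite root groups;
* `exists_tor` : elements of order `p ∣ q - 1` of the torus.
-/

set_option autoImplicit false

namespace Cfsg.Agent.H649.VanSp4

open Cfsg Cfsg.Agent.ChevalleyStructure.CoxeterGeom Cfsg.Agent.Tits.Roots Cfsg.Agent.Nodes.TypeC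
open Cfsg.Agent.Nodes.WittRoot Cfsg.Agent.Nodes.WittRGD Cfsg.Agent.Nodes.WittModel Cfsg.Agent.H811.PSq
open Cfsg.Agent.TitsThree Cfsg.Agent.TitsThree.Siegel Cfsg.Agent.TitsThree.WittFrame
  Cfsg.Agent.TitsThree.WittWeyl Cfsg.Agent.TitsThree.FrameCN Cfsg.Agent.TitsThree.SpIdent
open Cfsg.Agent.ClassicalGeometry.SympBasic

section comb

/-- the four types of positive roots -/
def om : Fin 4 → (Fin 2 → ℤ) := ![![2, 0], ![0, 2], ![1, 1], ![1, -1]]

/-- the four conditions -/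
def CC {F : Type*} [Field F] (u v : F) : Fin 4 → Prop := ![u = 1, v = 1, u * v = 1, u = v]

theorem cc_eq {F : Type*} [Field F] (h2 : ∀ c : F, c * c = 1 → c = 1) {u v : F} {k k' : Fin 4} (hk : CC u v k)
    (hk' : CC u v k') (hne : k ≠ k') : u = 1 ∧ v = 1 := by
  have key : ∀ k k' : Fin 4, k < k' → CC u v k → CC u v k' → u = 1 ∧ v = 1 := by
    intro k k' hlt h h'
    fin_cases k <;> fin_cases k' <;> simp only [CC, Fin.mk_lt_mk] at hlt <;> first | omega | skip
    · exact ⟨h, h'⟩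
    · have h1 : u = 1 := h
      have h2 : u * v = 1 := h'
      rw [h1, one_mul] at h2
      exact ⟨h1, h2⟩
    · have h1 : u = 1 := h
      have h2 : u = v := h'
      exact ⟨h1, by rw [← h2, h1]⟩
    · have h1 : v = 1 := h
      have h2 : u * v = 1 := h'
      rw [h1, mul_one] at h2
      exact ⟨h2, h1⟩
    · have h1 : v = 1 := h
      have h2 : u = v := h'
      exact ⟨by rw [h2, h1], h1⟩
    · have h1 : u * v = 1 := h
      have h3 : u = v := h'
      rw [h3] at h1
      have h4 := h2 v h1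
      exact ⟨by rw [h3, h4], h4⟩
  rcases lt_or_gt_of_ne hne with h | h
  · exact key k k' h hk hk'
  · exact key k' k h hk' hk

theorem cls {F : Type*} [Field F] (h2 : ∀ c : F, c * c = 1 → c = 1) {l : Fin 2 × Bool → F}
    (hl : ∀ y, l y * l (neg y) = 1) {a b : Fin 2 × Bool} (hab : Ok a b) (h : l a * l b = 1) :
    ∃ k : Fin 4, (wt a + wt b = om k ∨ wt a + wt b = -om k) ∧ CC (l (0, true)) (l (1, true)) k := by
  have e0 : l (0, true) * l (0, false) = 1 := hl (0, true)
  have e1 : l (1, true) * l (1, false) = 1 := hl (1, true)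
  have n0 : l (0, true) ≠ 0 := left_ne_zero_of_mul_eq_one e0
  have n1 : l (1, true) ≠ 0 := left_ne_zero_of_mul_eq_one e1
  have f0 : l (0, false) = (l (0, true))⁻¹ := eq_inv_of_mul_eq_one_right e0
  have f1 : l (1, false) = (l (1, true))⁻¹ := eq_inv_of_mul_eq_one_right e1
  obtain ⟨i, s⟩ := a
  obtain ⟨j, t⟩ := b
  have hs : i = j → s = t := by
    intro hij
    rcases hab with h3 | h3
    · exact absurd hij h3
    · exact congrArg Prod.snd h3
  obtain ⟨u, hu⟩ : ∃ u, l (0, true) = u := ⟨_, rfl⟩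
  obtain ⟨v, hv⟩ : ∃ v, l (1, true) = v := ⟨_, rfl⟩
  rw [hu] at f0 n0
  rw [hv] at f1 n1
  rw [hu, hv]
  have key0 : ∀ s, l (0, s) * l (0, s) = 1 → u = 1 := by
    intro s h3
    cases s
    · rw [f0] at h3
      exact inv_eq_one.1 (h2 _ h3)
    · rw [hu] at h3
      exact h2 _ h3
  have key1 : ∀ s, l (1, s) * l (1, s) = 1 → v = 1 := by
    intro s h3
    cases s
    · rw [f1] at h3
      exact inv_eq_one.1 (h2 _ h3)
    · rw [hv] at h3
      exact h2 _ h3
  have key2 : ∀ s t, l (0, s) * l (1, t) = 1 → (s = t → u * v = 1) ∧ (s ≠ t → u = v) := by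
    intro s t h3
    cases s <;> cases t
    · refine ⟨fun _ => ?_, fun h4 => absurd rfl h4⟩
      rw [f0, f1, ← mul_inv, inv_eq_one] at h3
      exact h3
    · refine ⟨fun h4 => by simp at h4, fun _ => ?_⟩
      rw [f0, hv, inv_mul_eq_one₀ n0] at h3
      exact h3
    · refine ⟨fun h4 => by simp at h4, fun _ => ?_⟩
      rw [hu, f1, mul_inv_eq_one₀ n1] at h3
      exact h3
    · refine ⟨fun _ => ?_, fun h4 => absurd rfl h4⟩
      rw [hu, hv] at h3
      exact h3
  fin_cases i <;> fin_cases j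
  · have hst := hs rfl
    subst hst
    refine ⟨0, ?_, key0 s h⟩
    clear h hab hs
    revert s
    decide
  · have h3 := key2 s t h
    by_cases hst : s = t
    · refine ⟨2, ?_, h3.1 hst⟩
      subst hst
      clear h3 h hab
      revert s
      decide
    · refine ⟨3, ?_, h3.2 hst⟩
      clear h3 h hab hs
      revert s t
      decide
  · have h3 := key2 t s (by rw [mul_comm]; exact h)
    by_cases hst : t = s
    · refine ⟨2, ?_, h3.1 hst⟩
      subst hst
      clear h3 h hab hs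
      revert t
      decide
    · refine ⟨3, ?_, h3.2 hst⟩
      clear h3 h hab hs
      revert s t
      decide
  · have hst := hs rfl
    subst hst
    refine ⟨1, ?_, key1 s h⟩
    clear h hab hs
    revert s
    decide

end comb

section sp

variable {F : Type*} [Field F]

theorem sq_one [CharP F 2] {c : F} (h : c * c = 1) : c = 1 := by
  have h1 : (c - 1) * (c - 1) = 0 := by
    have h2 : (2 : F) = 0 := by exact_mod_cast CharP.cast_eq_zero F 2
    linear_combination h + (1 - c) * h2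
  exact sub_eq_zero.1 (mul_self_eq_zero.1 h1)

theorem toPSp_injective [CharP F 2] : Function.Injective (toPSp (m := 2) (F := F)) := by
  rw [injective_iff_map_eq_one]
  intro g hg
  obtain ⟨a, ha, h⟩ := exists_smul_of_toPSp_eq_one hg
  rw [sq] at ha
  rw [sq_one ha] at h
  apply Subtype.ext
  apply LinearEquiv.ext
  intro v
  rw [h v, one_smul]
  rfl

/-- the frame -/
abbrev fr (F : Type*) [Field F] := frame 2 F

theorem b_ne (y : Fin 2 × Bool) : (fr F).b y ≠ 0 := by
  intro h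
  have h1 := (fr F).hb_self_neg y
  rw [h] at h1
  have h2 : (form 2 F).h (0 : Fin 2 ⊕ Fin 2 → F) ((fr F).b (neg y)) = 0 := HForm.zero_left _ _
  rw [h2] at h1
  exact (fr F).η_ne _ h1.symm

theorem scal_mul {g : (Fin 2 ⊕ Fin 2 → F) ≃ₗ[F] (Fin 2 ⊕ Fin 2 → F)} (hg : g ∈ isos (form 2 F))
    {l : Fin 2 × Bool → F} (hl : ∀ y, g ((fr F).b y) = l y • (fr F).b y) (y : Fin 2 × Bool) : l y * l (neg y) = 1 := by
  have h1 := hg ((fr F).b y) ((fr F).b (neg y))
  rw [hl, hl, HForm.smul_left, HForm.smul_right, form_σ, ← mul_assoc] at h1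
  refine mul_right_cancel₀ (b := (form 2 F).h ((fr F).b y) ((fr F).b (neg y))) ?_ (by rw [one_mul]; exact h1)
  rw [(fr F).hb_self_neg]
  exact (fr F).η_ne _

theorem eq_of_scal {g k : (Fin 2 ⊕ Fin 2 → F) ≃ₗ[F] (Fin 2 ⊕ Fin 2 → F)}
    (hl : ∀ y, g ((fr F).b y) = k ((fr F).b y)) : g = k := by
  have h1 : g.toLinearMap = k.toLinearMap := by
    refine LinearMap.ext_on span_ef ?_
    rintro v (⟨i, rfl⟩ | ⟨i, rfl⟩)
    · exact hl (i, true)
    · exact hl (i, false)
  apply LinearEquiv.ext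
  intro v
  exact congrArg (fun f : (Fin 2 ⊕ Fin 2 → F) →ₗ[F] (Fin 2 ⊕ Fin 2 → F) => f v) h1

theorem eq_one_of_scal {g : (Fin 2 ⊕ Fin 2 → F) ≃ₗ[F] (Fin 2 ⊕ Fin 2 → F)}
    (hl : ∀ y, g ((fr F).b y) = (fr F).b y) : g = 1 := eq_of_scal hl

/-- commuting with a root element -/
theorem of_comm {g k : (Fin 2 ⊕ Fin 2 → F) ≃ₗ[F] (Fin 2 ⊕ Fin 2 → F)} (hg : g ∈ isos (form 2 F))
    {l : Fin 2 × Bool → F} (hl : ∀ y, g ((fr F).b y) = l y • (fr F).b y) {a b : Fin 2 × Bool} (hab : Ok a b)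
    (hk : k ∈ PG (fr F) a b) (hk1 : k ≠ 1) (hgk : g * k = k * g) : l a * l b = 1 := by
  have happ : ∀ v, g (k v) = k (g v) := fun v => congrArg (fun f => f v) hgk
  rcases hab with h | rfl
  · rw [PG_ne _ h] at hk
    obtain ⟨t, rfl⟩ := hk
    have ht : t ≠ 0 := by
      rintro rfl
      exact hk1 ((fr F).X_zero a b)
    have h1 := happ ((fr F).b (neg b))
    rw [hl, map_smul, X_apply_neg (fr F) h, map_add, map_smul, hl, hl, smul_add] at h1
    have h2 := add_left_cancel h1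
    rw [smul_smul, smul_smul] at h2
    have h3 := smul_left_injective F (b_ne (F := F) a) h2
    have h4 : l a = l (neg b) := by
      rw [mul_comm (l (neg b))] at h3
      exact mul_left_cancel₀ ht h3
    rw [h4, mul_comm]
    exact scal_mul hg hl b
  · rw [PG_self] at hk
    obtain ⟨p, rfl⟩ := hk
    have hw : p.w = 0 := p.ok
    have hc : p.c ≠ 0 := by
      intro h
      apply hk1
      have : p = 1 := Frame.Adm.ext hw h
      rw [this]
      exact (fr F).Z_one a
    have h1 := happ ((fr F).b (neg a))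
    rw [hl, map_smul, Z_apply_neg (fr F), hw, smul_zero, add_zero, map_add, map_smul, hl, hl, smul_add] at h1
    have h2 := add_left_cancel h1
    rw [smul_smul, smul_smul] at h2
    have h3 := smul_left_injective F (b_ne (F := F) a) h2
    have h4 : l a = l (neg a) := by
      rw [mul_comm (l (neg a))] at h3
      exact mul_left_cancel₀ (mul_ne_zero hc ((fr F).η_ne a)) h3
    nth_rw 2 [h4]
    exact scal_mul hg hl a

/-- the torus, the root groups -/
noncomputable abbrev TT (F : Type*) [Field F] : Subgroup (PSp 2 F) := Cfsg.Agent.Nodes.WittModel.T (KInstSp.model 2 F)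

noncomputable abbrev XX (F : Type*) [Field F] : (Fin 2 → ℤ) → Subgroup (PSp 2 F) := Cfsg.Agent.Nodes.WittModel.X (KInstSp.model 2 F)

theorem mem_TT {x : PSp 2 F} (hx : x ∈ TT F) : ∃ (g : (Fin 2 ⊕ Fin 2 → F) ≃ₗ[F] (Fin 2 ⊕ Fin 2 → F))
    (hg : g ∈ isos (form 2 F)) (l : Fin 2 × Bool → F), x = toPSp ⟨g, hg⟩ ∧ ∀ y, g ((fr F).b y) = l y • (fr F).b y := by
  obtain ⟨⟨g, hg⟩, h1, rfl⟩ := hx
  have h2 : g ∈ Tor (fr F) (isos (form 2 F)) := h1
  obtain ⟨-, h3⟩ := h2
  choose l _ hl using h3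
  exact ⟨g, hg, l, rfl, hl⟩

theorem of_nf [CharP F 2] {W : Type*} [Group W] (cs : CoxeterSystem (CoxeterMatrix.B 2) W)
    {g : (Fin 2 ⊕ Fin 2 → F) ≃ₗ[F] (Fin 2 ⊕ Fin 2 → F)} (hg : g ∈ isos (form 2 F))
    {l : Fin 2 × Bool → F} (hl : ∀ y, g ((fr F).b y) = l y • (fr F).b y) {z : Fin 2 → ℤ}
    (hz : IsRoot cs (isCartan 2) z) (hf : NF (XX F) (toPSp ⟨g, hg⟩) z) :
    ∃ k : Fin 4, (ee z = om k ∨ ee z = -om k) ∧ CC (l (0, true)) (l (1, true)) k := by
  obtain ⟨a, b, hab, e⟩ := exists_of_isRoot cs hz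
  obtain ⟨u, hu, hu1, hxu⟩ := hf
  obtain ⟨k, hkI, hk, rfl⟩ := (mem_X (KInstSp.model 2 F)).1 hu
  rw [rg_eq (fr F) hab e] at hk
  have h1 : g * k = k * g := by
    have h2 : toPSp (⟨g, hg⟩ * ⟨k, hkI⟩ : isos (form 2 F)) = toPSp (⟨k, hkI⟩ * ⟨g, hg⟩ : isos (form 2 F)) := by
      rw [map_mul, map_mul]
      exact hxu
    exact congrArg Subtype.val (toPSp_injective h2)
  have hk1 : k ≠ 1 := by
    rintro rfl
    exact hu1 (map_one (toPSp (m := 2) (F := F)))
  rw [e]
  exact cls (fun c hc => sq_one hc) (scal_mul hg hl) hab (of_comm hg hl hab hk hk1 h1)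

/-- **At most one pair of root groups.** -/
theorem hone [CharP F 2] {W : Type*} [Group W] (cs : CoxeterSystem (CoxeterMatrix.B 2) W) {x : PSp 2 F}
    (hx : x ∈ TT F) (hx1 : x ≠ 1) (z z' : Fin 2 → ℤ) (hz : IsRoot cs (isCartan 2) z)
    (hz' : IsRoot cs (isCartan 2) z') (hf : NF (XX F) x z) (hf' : NF (XX F) x z') : z = z' ∨ z = -z' := by
  obtain ⟨g, hg, l, rfl, hl⟩ := mem_TT hx
  obtain ⟨k, hk, hc⟩ := of_nf cs hg hl hz hf
  obtain ⟨k', hk', hc'⟩ := of_nf cs hg hl hz' hf'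
  by_cases hkk : k = k'
  · subst hkk
    rcases hk with hk | hk <;> rcases hk' with hk' | hk'
    · exact Or.inl (ee_injective (hk.trans hk'.symm))
    · right
      apply ee_injective
      rw [ee_neg, hk, hk', _root_.neg_neg]
    · right
      apply ee_injective
      rw [ee_neg, hk, hk']
    · exact Or.inl (ee_injective (hk.trans hk'.symm))
  · exfalso
    obtain ⟨h0, h1⟩ := cc_eq (fun c hc => sq_one hc) hc hc' hkk
    have hs := scal_mul hg hl
    have e0 : l (0, true) * l (0, false) = 1 := hs (0, true)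
    have e1 : l (1, true) * l (1, false) = 1 := hs (1, true)
    rw [h0, one_mul] at e0
    rw [h1, one_mul] at e1
    apply hx1
    have h3 : g = 1 := by
      refine eq_one_of_scal fun y => ?_
      rw [hl]
      obtain ⟨i, s⟩ := y
      have h4 : l (i, s) = 1 := by
        fin_cases i <;> cases s
        · exact e0
        · exact h0
        · exact e1
        · exact h1
      rw [h4, one_smul]
    subst h3
    exact map_one _

theorem TT_comm {x y : PSp 2 F} (hx : x ∈ TT F) (hy : y ∈ TT F) : x * y = y * x := by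
  obtain ⟨g, hg, l, rfl, hl⟩ := mem_TT hx
  obtain ⟨k, hk, m, rfl, hm⟩ := mem_TT hy
  rw [← map_mul, ← map_mul]
  congr 1
  apply Subtype.ext
  change g * k = k * g
  refine eq_of_scal fun y => ?_
  change g (k ((fr F).b y)) = k (g ((fr F).b y))
  rw [hl, hm, map_smul, map_smul, hl, hm, smul_smul, smul_smul, mul_comm]

/-- torus elements -/
theorem mem_TT_dg (t : Fin 2 → Fˣ) : toPSp ⟨ofSp (Cfsg.Agent.S0777.dg t), ofSp_mem _⟩ ∈ TT F := by
  refine Subgroup.mem_map_of_mem _ (Subgroup.mem_subgroupOf.2 ⟨ofSp_mem _, ?_⟩)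
  rintro ⟨i, s⟩
  cases s
  · refine ⟨t i, (t i).ne_zero, ?_⟩
    funext j
    change ((Cfsg.Agent.S0777.dg t : Matrix.symplecticGroup (Fin 2) F) :
      Matrix (Fin 2 ⊕ Fin 2) (Fin 2 ⊕ Fin 2) F).mulVec (Pi.single (Sum.inl i) 1) j = _
    rw [Cfsg.Agent.S0777.dg_mulVec]
    change _ = (t i : F) * (Pi.single (Sum.inl i) 1 : Fin 2 ⊕ Fin 2 → F) j
    by_cases hj : j = Sum.inl i
    · subst hj; simp
    · rw [Pi.single_eq_of_ne hj, mul_zero, mul_zero]
  · refine ⟨((t i)⁻¹ : Fˣ), ((t i)⁻¹).ne_zero, ?_⟩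
    funext j
    change ((Cfsg.Agent.S0777.dg t : Matrix.symplecticGroup (Fin 2) F) :
      Matrix (Fin 2 ⊕ Fin 2) (Fin 2 ⊕ Fin 2) F).mulVec (Pi.single (Sum.inr i) 1) j = _
    rw [Cfsg.Agent.S0777.dg_mulVec]
    change _ = (((t i)⁻¹ : Fˣ) : F) * (Pi.single (Sum.inr i) 1 : Fin 2 ⊕ Fin 2 → F) j
    by_cases hj : j = Sum.inr i
    · subst hj; simp
    · rw [Pi.single_eq_of_ne hj, mul_zero, mul_zero]

/-- the homomorphism to the torus -/
noncomputable def tdg (F : Type*) [Field F] : Fˣ →* Matrix.symplecticGroup (Fin 2) F where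
  toFun u := Cfsg.Agent.S0777.dg (fun _ => u)
  map_one' := by
    apply Subtype.ext
    rw [← Matrix.mulVec_injective.eq_iff]
    funext v j
    rw [Cfsg.Agent.S0777.dg_mulVec]
    change _ = ((1 : Matrix (Fin 2 ⊕ Fin 2) (Fin 2 ⊕ Fin 2) F).mulVec v) j
    rw [Matrix.one_mulVec]
    rcases j with j | j <;> simp
  map_mul' u v := by
    apply Subtype.ext
    rw [← Matrix.mulVec_injective.eq_iff]
    funext w j
    rw [Submonoid.coe_mul, ← Matrix.mulVec_mulVec, Cfsg.Agent.S0777.dg_mulVec, Cfsg.Agent.S0777.dg_mulVec,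
      Cfsg.Agent.S0777.dg_mulVec]
    rcases j with j | j
    · simp only [Sum.elim_inl, Units.val_mul, mul_assoc]
    · simp only [Sum.elim_inr, mul_inv, Units.val_mul, mul_assoc]

theorem tdg_injective : Function.Injective (tdg F) := by
  intro u v h
  have h1 := congrArg (fun A : Matrix.symplecticGroup (Fin 2) F =>
    (A : Matrix (Fin 2 ⊕ Fin 2) (Fin 2 ⊕ Fin 2) F).mulVec (fun _ => 1) (Sum.inl 0)) h
  have h2 : ∀ w : Fˣ, (tdg F w : Matrix (Fin 2 ⊕ Fin 2) (Fin 2 ⊕ Fin 2) F).mulVec (fun _ => 1) (Sum.inl 0) = (w : F) := by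
    intro w
    change ((Cfsg.Agent.S0777.dg (fun _ => w) : Matrix.symplecticGroup (Fin 2) F) :
      Matrix (Fin 2 ⊕ Fin 2) (Fin 2 ⊕ Fin 2) F).mulVec (fun _ => 1) (Sum.inl 0) = _
    rw [Cfsg.Agent.S0777.dg_mulVec, mul_one]
    rfl
  simp only [h2] at h1
  exact Units.ext h1

/-- **Elements of prime order of the torus.** -/
theorem exists_tor [CharP F 2] [Fintype F] {p : ℕ} [hp : Fact p.Prime] (hd : p ∣ Fintype.card F - 1) :
    ∃ x ∈ TT F, orderOf x = p := by
  obtain ⟨u, hu⟩ := exists_prime_orderOf_dvd_card' (G := Fˣ) p (by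
    rw [Nat.card_units, Nat.card_eq_fintype_card]; exact hd)
  refine ⟨_, mem_TT_dg (fun _ => u), ?_⟩
  have h1 : ∀ w : Fˣ, toPSp ⟨ofSp (Cfsg.Agent.S0777.dg (fun _ => w)), ofSp_mem _⟩ =
      ((QuotientGroup.mk' (Subgroup.center (Matrix.symplecticGroup (Fin 2) F))).comp (tdg F)) w := by
    intro w
    change QuotientGroup.mk' _ (toSp _) = QuotientGroup.mk' _ _
    rw [toSp_ofSp]
    rfl
  rw [h1, orderOf_injective, hu]
  intro a b hab
  rw [← h1, ← h1] at hab
  have h2 := congrArg toSp (toPSp_injective hab)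
  rw [toSp_ofSp, toSp_ofSp] at h2
  exact tdg_injective h2

end sp

end Cfsg.Agent.H649.VanSp4
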