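import Cfsg.Agent.H649.VanSp4.Hone
import Cfsg.Agent.H649.VanSp4.Tor
import Cfsg.Agent.H811.PSq.Exc
import Cfsg.Agent.H620.PNorm
import Cfsg.Agent.S1092
import Cfsg.Agent.S0245

/-!
# `PSp₄(q)`, `q ≥ 8` even, `p ∣ q - 1`: the row of S4555 and S4559 (helper649)

* `vOrdP_sp4`.
-/

set_option autoImplicit false

open Cfsg

namespace Cfsg.Agent.H649.VanSp4

open CoxeterSystem Cfsg.Agent.ChevalleyStructure.CoxeterGeom Cfsg.Agent.Tits.Roots Cfsg.Agent.Tits.Core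
  Cfsg.Agent.Nodes.Reps Cfsg.Agent.Nodes.BNOf Cfsg.Agent.Nodes.Bruhat Cfsg.Agent.Nodes.LeviDec
  Cfsg.Agent.Nodes.StabComb Cfsg.Agent.Nodes.TypeC Cfsg.Agent.TitsThree Cfsg.Agent.H811.PSq

theorem card_B2 : Nat.card (CoxeterMatrix.B 2).Group = 8 :=
  S1092.result (⟨2, CoxeterMatrix.B 2⟩, 8) (by simp)

variable {F : Type} [Field F] [Fintype F] [CharP F 2]

theorem card_psp4 : Nat.card (PSp 2 F) =
    Fintype.card F ^ 4 * ((Fintype.card F ^ 2 - 1) * (Fintype.card F ^ 4 - 1)) := by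
  rw [← Nat.card_congr (H292.SpCen.spEquiv (F := F) 2).toEquiv, Cfsg.Agent.S0245.result rfl 2]
  simp [Finset.prod_range_succ]

/-- the exceptional characters -/
theorem exists_E (hq : 8 ≤ Fintype.card F) : ∃ E : Finset (IrrCharacter (PSp 2 F)), 8 < E.card ∧
    ∀ χ ∈ E, ∀ χ' ∈ E, ∀ P : Subgroup (PSp 2 F), (Nat.card P).Coprime (Fintype.card F ^ 2 + 1) →
      ∀ x ∈ P, (χ : PSp 2 F → ℂ) x = (χ' : PSp 2 F → ℂ) x := by
  classical
  have hfin : Finite (PSp 2 F) := Finite.of_equiv _ (H292.SpCen.spEquiv (F := F) 2).toEquiv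
  have := Fintype.ofFinite (PSp 2 F)
  obtain ⟨q, hqe⟩ : ∃ q, q = Fintype.card F := ⟨_, rfl⟩
  have hcard := card_psp4 (F := F)
  have hcyc := cycExact_psp (F := F)
  have h2 : 2 ∣ Fintype.card F := two_dvd_card
  rw [← hqe] at hq hcard hcyc h2 ⊢
  obtain ⟨k, rfl⟩ := h2
  have h1 : 1 ≤ (2 * k) ^ 2 := Nat.one_le_pow _ _ (by omega)
  have h4 : 1 ≤ (2 * k) ^ 4 := Nat.one_le_pow _ _ (by omega)
  have hk : 16 ≤ k ^ 2 := by nlinarith
  obtain ⟨E, hE1, hE2⟩ := exists_family (a := (2 * k) ^ 2 + 1) (e := 4) (s := k ^ 2) hcyc (by nlinarith) (by nlinarith)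
    (N := ((2 * k : ℕ) : ℤ) ^ 4 * (((2 * k : ℕ) : ℤ) ^ 2 - 1) ^ 2) (by
      rw [hcard]
      push_cast [Nat.cast_sub h1, Nat.cast_sub h4]
      ring) (by
      have h5 : (((2 * k) ^ 2 + 1 : ℕ) : ZMod ((2 * k) ^ 2 + 1)) = 0 := ZMod.natCast_self _
      push_cast at h5 ⊢
      have h6 : (2 * (k : ZMod ((2 * k) ^ 2 + 1))) ^ 2 = -1 := eq_neg_of_add_eq_zero_left h5
      rw [show (4 : ℕ) = 2 * 2 by norm_num, pow_mul, h6]
      norm_num) (by ring) (by omega)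
  exact ⟨E, by omega, hE2⟩

theorem V_ne_bot {I W Y : Type*} [Fintype I] [DecidableEq I] [Group W] [Group Y] {M : CoxeterMatrix I}
    {cs : CoxeterSystem M W} {A : I → I → ℤ} {h : IsCartan M A} {r : ℕ} {T : Subgroup Y} {n : I → Y}
    {X : (I → ℤ) → Subgroup Y} (R : RGD cs h r T n X) [Finite W] {i j : I} (hij : j ≠ i) : VJ cs h X {i} ≠ ⊥ := by
  intro hV
  apply X_ne_bot R (isRoot_sr cs h j)
  rw [eq_bot_iff, ← hV]
  exact RGD.le_Sup (sr_mem_NotJ (cs := cs) (h := h) (J := {i}) (i := j) hij)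

/-- **`PSp₄(q)`, `q ≥ 8` even, `p ∣ q - 1`.** -/
theorem vOrdP_sp4 (hq : 8 ≤ Fintype.card F) {p : ℕ} [hp : Fact p.Prime] (hd : p ∣ Fintype.card F - 1) :
    H620.PNorm.VOrdP p (PSp 2 F) := by
  classical
  have hfin : Finite (PSp 2 F) := Finite.of_equiv _ (H292.SpCen.spEquiv (F := F) 2).toEquiv
  have := Fact.mk Nat.prime_two
  have hW : Finite (CoxeterMatrix.B 2).Group := finite_W (CoxeterMatrix.B 2).toCoxeterSystem
  obtain ⟨E, hE1, hE2⟩ := exists_E (F := F) hq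
  obtain ⟨x, hx, hxp⟩ := exists_tor (F := F) hd
  have R := Nodes.WittAll.rgdC_model (p := 2) (KInstSp.model 2 F)
    (Nodes.WittAll.AmbT.of_amb Nodes.WittU.amb_Sp 2) (p0 := SpIdent.adm 1) one_ne_zero
    (CoxeterMatrix.B 2).toCoxeterSystem
  refine ⟨x, hxp, vz_of_family R ?_ (fun a ha b hb => TT_comm ha hb) E hE2 ?_ (by omega) (by rw [card_B2]; exact hE1)
    hx (hone _ hx ?_)⟩
  · rw [eq_top_iff, ← Nodes.WittModel.G1_eq_top (KInstSp.model 2 F) (by norm_num)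
      (CoxeterMatrix.B 2).toCoxeterSystem]
    exact le_sup_right
  · intro i
    obtain ⟨j, hj⟩ : ∃ j : Fin 2, j ≠ i := exists_ne i
    refine cop_psp (K := VJ (CoxeterMatrix.B 2).toCoxeterSystem (isCartan 2)
      (Nodes.WittModel.X (KInstSp.model 2 F)) {i}) ?_ (V_ne_bot R hj) (PJ_le_normalizer_VJ R {i})
    exact R.isPGroup_Upos.to_le (VJ_le_U {i})
  · rintro rfl
    rw [orderOf_one] at hxp
    exact hp.out.one_lt.ne hxp

end Cfsg.Agent.H649.VanSp4
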